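import Cfsg.Agent.Components.FStar
import Cfsg.Agent.Components.PComponent
import Cfsg.Agent.Cores.Fitting

/-!
Bender's theorem on maximal subgroups `M ≠ N` with `F*(M) ≤ N` and `F*(N) ≤ M`.
-/

open Subgroup
open scoped Pointwise commutatorElement

namespace Cfsg.Agent.Components

variable {G : Type*} [Group G] [Finite G]

/-- `O_p(M)` as a subgroup of `G`. -/
abbrev coreIn (p : ℕ) (M : Subgroup G) : Subgroup G := (pCore p M).map M.subtype

/-- `F*(M)` as a subgroup of `G`. -/
abbrev fstarIn (M : Subgroup G) : Subgroup G := (generalizedFittingSubgroup M).map M.subtype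

omit [Finite G] in
theorem le_normalizer_map_subtype {M : Subgroup G} (K : Subgroup M) [K.Normal] :
    M ≤ normalizer (K.map M.subtype : Set G) := by
  have := le_normalizer_map (H := K) M.subtype
  rwa [normalizer_eq_top_iff.mpr inferInstance, ← MonoidHom.range_eq_map, range_subtype] at this

omit [Finite G] in
theorem normalizer_eq_of_maximal [IsSimpleGroup G] {M X : Subgroup G} (hM : IsCoatom M)
    (hX : X ≤ M) (hX1 : X ≠ ⊥) (hMX : M ≤ normalizer (X : Set G)) :
    normalizer (X : Set G) = M := by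
  rcases hM.le_iff.mp hMX with h | h
  · exfalso
    have hn : X.Normal := normalizer_eq_top_iff.mp h
    exact hM.1 (top_le_iff.mp ((hn.eq_bot_or_eq_top.resolve_left hX1).ge.trans hX))
  · exact h

/-- One inclusion for the layers. -/
theorem layer_le_layer_of_fstar_le {M N : Subgroup G} (h1 : fstarIn M ≤ N) (h2 : fstarIn N ≤ M) :
    (layer M).map M.subtype ≤ (layer N).map N.subtype := by
  rw [map_le_iff_le_comap, layer_le_iff]
  intro K hK
  rw [← map_le_iff_le_comap]
  set KG := K.map M.subtype with hKG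
  set Y := fstarIn N with hY
  have hKN : KG ≤ N :=
    (map_mono ((component_le_layer hK).trans layer_le_genFitting)).trans h1
  have hYN : Y ≤ N := map_subtype_le _
  set H := M ⊓ N with hH
  have hKH : KG ≤ H := le_inf (map_subtype_le _) hKN
  have hKHc : IsComponent (KG.subgroupOf H) := by
    refine ⟨?_, quasisimple_of_mulEquiv
      ((K.equivMapOfInjective M.subtype M.subtype_injective).trans
        (subgroupOfEquivOfLe hKH).symm) hK.2⟩
    have h := hK.1.comap (Subgroup.inclusion (inf_le_left : H ≤ M))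
    rwa [← comap_map_eq_self_of_injective M.subtype_injective K, comap_comap] at h
  have hNn := genFitting_normal (G := N)
  have hYHn : (Y.subgroupOf H).Normal := normal_subgroupOf_of_le_normalizer
    (inf_le_right.trans (le_normalizer_map_subtype _))
  have hKY : KG ≤ Y := by
    rcases component_le_or_commute_normal hKHc hYHn with h | h
    · exact fun k hk => mem_subgroupOf.mp (h (x := ⟨k, hKH hk⟩) (mem_subgroupOf.mpr hk))
    · have h' := congrArg (Subgroup.map H.subtype) h
      rw [Subgroup.map_commutator, map_subgroupOf_eq_of_le hKH,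
        map_subgroupOf_eq_of_le (le_inf h2 hYN), Subgroup.map_bot,
        commutator_eq_bot_iff_le_centralizer] at h'
      intro k hk
      refine ⟨⟨k, hKN hk⟩, centralizer_genFitting_le fun y hy => ?_, rfl⟩
      exact Subtype.ext (h' hk y ⟨y, hy, rfl⟩)
  have hKY' : (KG.subgroupOf Y).IsSubnormal := by
    have h := hKHc.1.comap (Subgroup.inclusion (le_inf h2 hYN : Y ≤ H))
    exact h
  have hKNs : (KG.subgroupOf N).IsSubnormal := by
    have hYn : (Y.subgroupOf N).IsSubnormal :=
      (normal_subgroupOf_of_le_normalizer (le_normalizer_map_subtype _)).isSubnormal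
    have h := (hKY'.comap (subgroupOfEquivOfLe hYN).toMonoidHom).trans' hYn
    rwa [show ((KG.subgroupOf Y).comap (subgroupOfEquivOfLe hYN).toMonoidHom).map
        (Y.subgroupOf N).subtype = KG.subgroupOf N from ?_] at h
    ext n
    constructor
    · rintro ⟨z, hz, rfl⟩
      exact hz
    · exact fun hn => ⟨⟨n, mem_subgroupOf.mpr (hKY hn)⟩, hn, rfl⟩
  rw [← map_subgroupOf_eq_of_le hKN]
  exact map_mono (component_le_layer ⟨hKNs, quasisimple_of_mulEquiv
    ((K.equivMapOfInjective M.subtype M.subtype_injective).trans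
      (subgroupOfEquivOfLe hKN).symm) hK.2⟩)

/-- With trivial layer, `F*(M)` is generated by the `O_q(M)`. -/
theorem fstarIn_eq {M : Subgroup G} (hE : layer M = ⊥) :
    fstarIn M = ⨆ q : Nat.Primes, coreIn (q : ℕ) M := by
  rw [fstarIn, generalizedFittingSubgroup, hE, bot_sup_eq, Cores.fittingSubgroup_eq_iSup_pCore,
    Subgroup.map_iSup]

theorem coreIn_le_fstarIn (p : ℕ) [Fact p.Prime] (M : Subgroup G) : coreIn p M ≤ fstarIn M :=
  map_mono (pCore_le_fitting.trans fitting_le_genFitting)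

omit [Finite G] in
theorem coreIn_isPGroup (p : ℕ) (M : Subgroup G) [Fact p.Prime] [Finite M] :
    IsPGroup p (coreIn p M) := Cores.pCore_isPGroup.map _

/-- Cores for different primes commute. -/
theorem coreIn_commute {M N : Subgroup G} (h1 : fstarIn M ≤ N) (h2 : fstarIn N ≤ M)
    (p q : Nat.Primes) (hpq : p ≠ q) :
    ⁅coreIn (p : ℕ) M, coreIn (q : ℕ) N⁆ = ⊥ := by
  have : Fact (p : ℕ).Prime := ⟨p.2⟩
  have : Fact (q : ℕ).Prime := ⟨q.2⟩
  rw [← le_bot_iff]
  refine le_trans (le_inf ?_ ?_) ((IsPGroup.disjoint_of_ne (p : ℕ) (q : ℕ)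
    (fun h => hpq (Subtype.ext h)) _ _ (coreIn_isPGroup (p : ℕ) M)
    (coreIn_isPGroup (q : ℕ) N)).le_bot)
  · exact le_normalizer_iff_commutator_le_left.mp
      (((coreIn_le_fstarIn _ N).trans h2).trans (le_normalizer_map_subtype _))
  · exact le_normalizer_iff_commutator_le_right.mp
      (((coreIn_le_fstarIn _ M).trans h1).trans (le_normalizer_map_subtype _))

/-- `O_p(M) ≠ 1` implies `O_p(N) ≠ 1`. -/
theorem coreIn_eq_bot_of_eq_bot {M N : Subgroup G} (hEN : layer N = ⊥) (h1 : fstarIn M ≤ N)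
    (h2 : fstarIn N ≤ M) (p : Nat.Primes) (hp : coreIn (p : ℕ) N = ⊥) :
    coreIn (p : ℕ) M = ⊥ := by
  have : Fact (p : ℕ).Prime := ⟨p.2⟩
  set X := coreIn (p : ℕ) M with hX
  have hXN : X ≤ N := (coreIn_le_fstarIn _ M).trans h1
  have hc : fstarIn N ≤ centralizer (X : Set G) := by
    rw [fstarIn_eq hEN, iSup_le_iff]
    intro q
    rcases eq_or_ne p q with rfl | hne
    · rw [hp]; exact bot_le
    · rw [← commutator_eq_bot_iff_le_centralizer, commutator_comm]
      exact coreIn_commute h1 h2 p q hne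
  have hFn := genFitting_normal (G := N)
  have hXF : X.subgroupOf N ≤ generalizedFittingSubgroup N := fun x hx =>
    centralizer_genFitting_le fun y hy => Subtype.ext (hc ⟨y, hy, rfl⟩ _ hx).symm
  have hXs : (X.subgroupOf N).IsSubnormal := by
    refine IsSubnormal.step _ _ hXF hFn.isSubnormal (normal_subgroupOf_of_le_normalizer ?_)
    intro f hf
    exact le_normalizer_comap N.subtype
      (le_normalizer_map_subtype (pCore (p : ℕ) M) (h2 ⟨f, hf, rfl⟩) : (f : G) ∈ _)
  have h := map_mono (f := N.subtype)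
    (subnormal_le_pCore hXs (coreIn_isPGroup (p : ℕ) M).comap_subtype)
  rw [map_subgroupOf_eq_of_le hXN] at h
  exact le_bot_iff.mp (h.trans hp.le)

/-- A `p`-element centralizing `O_{p'}(F(M))` centralizes `O_{p'}(F(N))`. -/
theorem commute_coreIn {M N : Subgroup G} (hEM : layer M = ⊥) (h1 : fstarIn M ≤ N)
    (h2 : fstarIn N ≤ M) (p r : Nat.Primes) (hrp : r ≠ p) {x : G} (hxM : x ∈ M) {k : ℕ}
    (hk : x ^ (p : ℕ) ^ k = 1)
    (hx : ∀ s : Nat.Primes, s ≠ p → x ∈ centralizer (coreIn (s : ℕ) M : Set G)) :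
    x ∈ centralizer (coreIn (r : ℕ) N : Set G) := by
  have : Fact (p : ℕ).Prime := ⟨p.2⟩
  have : Fact (r : ℕ).Prime := ⟨r.2⟩
  intro y hy
  have hyM : y ∈ M := h2 (coreIn_le_fstarIn _ N hy)
  have hyXp : ∀ w ∈ coreIn (p : ℕ) M, Commute w y := fun w hw =>
    commutatorElement_eq_one_iff_mul_comm.mp (mem_bot.mp
      (coreIn_commute h1 h2 p r hrp.symm ▸ commutator_mem_commutator hw hy))
  have hxXp : x ∈ normalizer (coreIn (p : ℕ) M : Set G) := le_normalizer_map_subtype _ hxM
  set z := x * y * x⁻¹ * y⁻¹ with hz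
  have hzM : z ∈ M := M.mul_mem (M.mul_mem (M.mul_mem hxM hyM) (M.inv_mem hxM)) (M.inv_mem hyM)
  have hzc : ∀ s : Nat.Primes, ∀ w ∈ coreIn (s : ℕ) M, w * z = z * w := by
    intro s w hw
    rcases eq_or_ne s p with rfl | hsp
    · have hw' : Commute (x⁻¹ * w * x) y := hyXp _ ((mem_normalizer_iff''.mp hxXp w).mp hw)
      have h1 : Commute w (x * y * x⁻¹) := by
        show w * (x * y * x⁻¹) = x * y * x⁻¹ * w
        calc w * (x * y * x⁻¹) = x * ((x⁻¹ * w * x) * y) * x⁻¹ := by group
          _ = x * (y * (x⁻¹ * w * x)) * x⁻¹ := by rw [hw'.eq]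
          _ = x * y * x⁻¹ * w := by group
      exact (h1.mul_right (hyXp w hw).inv_right).eq
    · have hw' : y⁻¹ * w * y ∈ coreIn (s : ℕ) M :=
        (mem_normalizer_iff''.mp (le_normalizer_map_subtype _ hyM) w).mp hw
      have hc1 : Commute (y⁻¹ * w * y) x⁻¹ := (show Commute (y⁻¹ * w * y) x from hx s hsp _ hw').inv_right
      have hc2 : Commute w x := hx s hsp w hw
      calc w * z = w * x * y * x⁻¹ * y⁻¹ := by rw [hz]; group
        _ = x * w * y * x⁻¹ * y⁻¹ := by rw [hc2.eq]
        _ = x * y * ((y⁻¹ * w * y) * x⁻¹) * y⁻¹ := by group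
        _ = x * y * (x⁻¹ * (y⁻¹ * w * y)) * y⁻¹ := by rw [hc1.eq]
        _ = z * w := by rw [hz]; group
  have hzc' : ∀ w ∈ fstarIn M, w * z = z * w := by
    have h : fstarIn M ≤ centralizer ({z} : Set G) := by
      rw [fstarIn_eq hEM, iSup_le_iff]
      exact fun s w hw => mem_centralizer_singleton_iff.mpr (hzc s w hw)
    exact fun w hw => mem_centralizer_singleton_iff.mp (h hw)
  have hzF : (⟨z, hzM⟩ : M) ∈ generalizedFittingSubgroup M :=
    centralizer_genFitting_le fun w hw => Subtype.ext (hzc' _ ⟨w, hw, rfl⟩)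
  -- modulo `O_p(M)` the element `x` centralizes `F*(M)`
  set π := QuotientGroup.mk' (pCore (p : ℕ) M) with hπ
  set X : M := ⟨x, hxM⟩
  set Y : M := ⟨y, hyM⟩
  set Z : M := ⟨z, hzM⟩
  have hF : generalizedFittingSubgroup M ≤ (centralizer ({π X} : Set _)).comap π := by
    rw [generalizedFittingSubgroup, hEM, bot_sup_eq, Cores.fittingSubgroup_eq_iSup_pCore,
      iSup_le_iff]
    intro s f hf
    rw [mem_comap, mem_centralizer_singleton_iff, ← map_mul, ← map_mul]
    rcases eq_or_ne s p with rfl | hsp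
    · rw [map_mul, map_mul, show π f = 1 from (QuotientGroup.eq_one_iff f).mpr hf, one_mul, mul_one]
    · exact congrArg π (Subtype.ext (hx s hsp _ ⟨f, hf, rfl⟩))
  have hZX : Commute (π Z) (π X) := mem_centralizer_singleton_iff.mp (hF hzF)
  have hXYZ : π X * π Y * (π X)⁻¹ = π Z * π Y := by
    rw [← map_mul, ← map_inv, ← map_mul, ← map_mul]
    refine congrArg π (Subtype.ext ?_)
    show x * y * x⁻¹ = z * y
    rw [hz, inv_mul_cancel_right]
  have hpow : ∀ n : ℕ, π X ^ n * π Y * (π X ^ n)⁻¹ = π Z ^ n * π Y := by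
    intro n
    induction n with
    | zero => simp
    | succ n ih =>
      calc π X ^ (n + 1) * π Y * (π X ^ (n + 1))⁻¹
          = π X * (π X ^ n * π Y * (π X ^ n)⁻¹) * (π X)⁻¹ := by rw [pow_succ']; group
        _ = π X * π Z ^ n * π Y * (π X)⁻¹ := by rw [ih]; group
        _ = π Z ^ n * π X * π Y * (π X)⁻¹ := by rw [((hZX.pow_left n).symm).eq]
        _ = π Z ^ n * (π X * π Y * (π X)⁻¹) := by group
        _ = π Z ^ (n + 1) * π Y := by rw [hXYZ, pow_succ, mul_assoc]
  have hZn : π Z ^ ((p : ℕ) ^ k) = 1 := by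
    have h := hpow ((p : ℕ) ^ k)
    rw [← map_pow π X, show X ^ (p : ℕ) ^ k = 1 from Subtype.ext hk, map_one, one_mul, inv_one,
      mul_one] at h
    exact mul_eq_right.mp h.symm
  rw [← map_pow, ← MonoidHom.mem_ker, QuotientGroup.ker_mk'] at hZn
  obtain ⟨j, hj⟩ := Cores.pCore_isPGroup (p := (p : ℕ)) (G := M) ⟨_, hZn⟩
  have hZp : Z ^ (p : ℕ) ^ (k + j) = 1 := by
    rw [pow_add, pow_mul]
    exact congrArg Subtype.val hj
  have hFn := genFitting_normal (G := M)
  have hZ0 : Z ∈ pCore (p : ℕ) M := by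
    refine subnormal_le_pCore (IsSubnormal.step _ _ (zpowers_le.mpr hzF) hFn.isSubnormal
      (normal_subgroupOf_of_le_normalizer ?_)) ?_ (mem_zpowers Z)
    · refine le_trans ?_ (centralizer_le_normalizer _)
      rw [le_centralizer_iff, zpowers_le]
      exact fun w hw => Subtype.ext (hzc' _ ⟨w, hw, rfl⟩)
    · intro w
      obtain ⟨i, hi⟩ := w.2
      refine ⟨k + j, Subtype.ext ?_⟩
      show (w : M) ^ (p : ℕ) ^ (k + j) = 1
      rw [← hi, ← zpow_natCast, ← zpow_mul, mul_comm, zpow_mul, zpow_natCast, hZp, one_zpow]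
  have hzy : Commute z y := hyXp z ⟨Z, hZ0, rfl⟩
  obtain ⟨m, hm⟩ := coreIn_isPGroup (r : ℕ) N ⟨y, hy⟩
  have hm' : y ^ (r : ℕ) ^ m = 1 := congrArg Subtype.val hm
  have hzm : z ^ (r : ℕ) ^ m = 1 := by
    have h : (x * y * x⁻¹) ^ (r : ℕ) ^ m = 1 := by rw [conj_pow, hm']; group
    rwa [show x * y * x⁻¹ = z * y by rw [hz, inv_mul_cancel_right], hzy.mul_pow, hm', mul_one] at h
  have hzp : z ^ (p : ℕ) ^ (k + j) = 1 := congrArg Subtype.val hZp
  have hz1 : z = 1 := orderOf_eq_one_iff.mp (Nat.eq_one_of_dvd_coprimes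
    (((Nat.coprime_primes r.2 p.2).mpr fun h => hrp (Subtype.ext h)).pow _ _)
    (orderOf_dvd_of_pow_eq_one hzm) (orderOf_dvd_of_pow_eq_one hzp))
  rw [hz, mul_inv_eq_one, mul_inv_eq_iff_eq_mul] at hz1
  exact hz1.symm

/-- The subgroup generated by the `p`-elements of `C_M(O_{p'}(F(M)))`. -/
abbrev pPartIn (p : Nat.Primes) (M : Subgroup G) : Subgroup G :=
  pGen (p : ℕ) (M ⊓ ⨅ s : {s : Nat.Primes // s ≠ p}, centralizer (coreIn ((s : Nat.Primes) : ℕ) M : Set G))

theorem le_normalizer_pPartIn (p : Nat.Primes) (M : Subgroup G) :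
    M ≤ normalizer (pPartIn p M : Set G) := by
  refine le_trans ?_ (normalizer_le_normalizer_pGen _)
  intro g hg
  refine mem_normalizer_iff_map_conj_eq.mpr (eq_of_le_of_card_ge ?_ ?_)
  · rintro _ ⟨c, hc, rfl⟩
    refine ⟨M.mul_mem (M.mul_mem hg hc.1) (M.inv_mem hg), mem_iInf.mpr fun s w hw => ?_⟩
    have hw' := (mem_normalizer_iff''.mp (le_normalizer_map_subtype _ hg) w).mp hw
    have h : Commute (g⁻¹ * w * g) c := mem_iInf.mp hc.2 s _ hw'
    show w * (g * c * g⁻¹) = g * c * g⁻¹ * w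
    calc w * (g * c * g⁻¹) = g * ((g⁻¹ * w * g) * c) * g⁻¹ := by group
      _ = g * (c * (g⁻¹ * w * g)) * g⁻¹ := by rw [h.eq]
      _ = g * c * g⁻¹ * w := by group
  · rw [card_map_of_injective (MulAut.conj g).injective]

theorem pPartIn_le [IsSimpleGroup G] {M N : Subgroup G} (hN : IsCoatom N) (hEM : layer M = ⊥)
    (h1 : fstarIn M ≤ N) (h2 : fstarIn N ≤ M) (p q : Nat.Primes) (hqp : q ≠ p)
    (hq : coreIn (q : ℕ) N ≠ ⊥) : pPartIn p M ≤ pPartIn p N := by
  rw [pPartIn, pGen, closure_le]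
  rintro x ⟨⟨hxM, hxC⟩, k, hk⟩
  have hx : ∀ r : Nat.Primes, r ≠ p → x ∈ centralizer (coreIn (r : ℕ) N : Set G) := fun r hr =>
    commute_coreIn hEM h1 h2 p r hr hxM hk fun s hs => mem_iInf.mp hxC ⟨s, hs⟩
  have hxN : x ∈ N := by
    rw [← normalizer_eq_of_maximal hN (map_subtype_le _) hq (le_normalizer_map_subtype _)]
    exact centralizer_le_normalizer _ (hx q hqp)
  exact mem_pGen ⟨hxN, mem_iInf.mpr fun s => hx s s.2⟩ hk

/-- Bender's theorem. -/
theorem bender_maximal [IsSimpleGroup G] (hna : ¬ IsMulCommutative G) {M N : Subgroup G}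
    (hM : IsCoatom M) (hN : IsCoatom N) (hMN : M ≠ N) (h1 : fstarIn M ≤ N) (h2 : fstarIn N ≤ M) :
    ∃ p : ℕ, p.Prime ∧ IsPGroup p (generalizedFittingSubgroup M) ∧
      IsPGroup p (generalizedFittingSubgroup N) := by
  classical
  -- the layers are trivial
  have hEE : (layer M).map M.subtype = (layer N).map N.subtype :=
    le_antisymm (layer_le_layer_of_fstar_le h1 h2) (layer_le_layer_of_fstar_le h2 h1)
  have hE0 : (layer M).map M.subtype = ⊥ := by
    by_contra hne
    have := layer_normal (G := M)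
    have := layer_normal (G := N)
    refine hMN ((normalizer_eq_of_maximal hM (map_subtype_le _) hne
      (le_normalizer_map_subtype _)).symm.trans ?_)
    rw [hEE]
    exact normalizer_eq_of_maximal hN (map_subtype_le _) (hEE ▸ hne) (le_normalizer_map_subtype _)
  have hEM : layer M = ⊥ := (map_eq_bot_iff_of_injective _ M.subtype_injective).mp hE0
  have hEN : layer N = ⊥ := (map_eq_bot_iff_of_injective _ N.subtype_injective).mp (hEE ▸ hE0)
  -- at most one prime
  have huniq : ∀ p q : Nat.Primes, coreIn (p : ℕ) M ≠ ⊥ → coreIn (q : ℕ) M ≠ ⊥ → p = q := by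
    intro p q hp hq
    by_contra hpq
    have : Fact (p : ℕ).Prime := ⟨p.2⟩
    have hqN : coreIn (q : ℕ) N ≠ ⊥ := fun h => hq (coreIn_eq_bot_of_eq_bot hEN h1 h2 q h)
    have heq : pPartIn p M = pPartIn p N :=
      le_antisymm (pPartIn_le hN hEM h1 h2 p q (Ne.symm hpq) hqN)
        (pPartIn_le hM hEN h2 h1 p q (Ne.symm hpq) hq)
    have hX : coreIn (p : ℕ) M ≤ pPartIn p M := by
      refine pGroup_le_pGen (coreIn_isPGroup _ M) (le_inf (map_subtype_le _) (le_iInf fun s => ?_))
      rw [← commutator_eq_bot_iff_le_centralizer, ← le_bot_iff]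
      have : Fact ((s : Nat.Primes) : ℕ).Prime := ⟨(s : Nat.Primes).2⟩
      refine le_trans (le_inf ?_ ?_) ((IsPGroup.disjoint_of_ne (p : ℕ) ((s : Nat.Primes) : ℕ)
        (fun h => s.2 (Subtype.ext h.symm)) _ _ (coreIn_isPGroup (p : ℕ) M)
        (coreIn_isPGroup ((s : Nat.Primes) : ℕ) M)).le_bot)
      · exact le_normalizer_iff_commutator_le_left.mp
          ((map_subtype_le _).trans (le_normalizer_map_subtype _))
      · exact le_normalizer_iff_commutator_le_right.mp
          ((map_subtype_le _).trans (le_normalizer_map_subtype _))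
    have hne : pPartIn p M ≠ ⊥ := fun h => hp (le_bot_iff.mp (hX.trans h.le))
    have hMeq : normalizer (pPartIn p M : Set G) = M :=
      normalizer_eq_of_maximal hM ((pGen_le _).trans inf_le_left) hne (le_normalizer_pPartIn p M)
    have hNeq : normalizer (pPartIn p N : Set G) = N :=
      normalizer_eq_of_maximal hN ((pGen_le _).trans inf_le_left) (heq ▸ hne)
        (le_normalizer_pPartIn p N)
    exact hMN (hMeq.symm.trans ((congrArg (fun X : Subgroup G => normalizer (X : Set G)) heq).trans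
      hNeq))
  have hM1 : M ≠ ⊥ := by
    intro h
    subst h
    refine hna (@IsCyclic.isMulCommutative G _ ?_)
    obtain ⟨g, hg⟩ := exists_ne (1 : G)
    refine ⟨g, fun y => ?_⟩
    rcases hM.le_iff.mp (bot_le : (⊥ : Subgroup G) ≤ zpowers g) with h | h
    · exact mem_zpowers_iff.mp (h.symm ▸ mem_top y)
    · exact absurd (zpowers_eq_bot.mp h) hg
  have hF1 : fstarIn M ≠ ⊥ := by
    rw [fstarIn, Ne, map_eq_bot_iff_of_injective _ M.subtype_injective]
    intro h
    refine hM1 (eq_bot_iff.mpr fun m hm => ?_)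
    have := centralizer_genFitting_le (G := M) (x := ⟨m, hm⟩)
      (fun y hy => by rw [h, SetLike.mem_coe, mem_bot] at hy; rw [hy, one_mul, mul_one])
    rw [h, mem_bot] at this
    exact congrArg Subtype.val this
  obtain ⟨p, hp⟩ : ∃ p : Nat.Primes, coreIn (p : ℕ) M ≠ ⊥ := by
    by_contra hcon
    push Not at hcon
    exact hF1 (by rw [fstarIn_eq hEM]; exact iSup_eq_bot.mpr hcon)
  have : Fact (p : ℕ).Prime := ⟨p.2⟩
  have key : ∀ M' : Subgroup G, layer M' = ⊥ →
      (∀ q : Nat.Primes, q ≠ p → coreIn (q : ℕ) M' = ⊥) →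
      IsPGroup (p : ℕ) (generalizedFittingSubgroup M') := by
    intro M' hE hc
    refine IsPGroup.to_le (Cores.pCore_isPGroup (p := (p : ℕ)) (G := M')) ?_
    rw [generalizedFittingSubgroup, hE, bot_sup_eq, Cores.fittingSubgroup_eq_iSup_pCore,
      iSup_le_iff]
    intro q
    rcases eq_or_ne q p with rfl | hne
    · exact le_rfl
    · exact ((map_eq_bot_iff_of_injective _ M'.subtype_injective).mp (hc q hne)).le.trans bot_le
  refine ⟨p, p.2, key M hEM fun q hq => ?_, key N hEN fun q hq => ?_⟩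
  · by_contra hne
    exact hq (huniq q p hne hp)
  · refine coreIn_eq_bot_of_eq_bot hEM h2 h1 q ?_
    by_contra hne
    exact hq (huniq q p hne hp)

end Cfsg.Agent.Components
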