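import Cfsg.Agent.Signalizer.Generation
import Cfsg.Agent.Coprime.Generation
import Cfsg.Agent.Components.Basic

/-!
Factorizations of coprimely acted groups from those of the centralisers.
-/

open Subgroup
open scoped Pointwise commutatorElement

namespace Cfsg.Agent.CompFact

variable {G : Type*} [Group G] [Finite G]

theorem card_mul_mul_card_inf (H K : Subgroup G) :
    Nat.card ((H : Set G) * (K : Set G) : Set G) * Nat.card (H ⊓ K : Subgroup G) =
      Nat.card H * Nat.card K := by
  classical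
  rw [← Nat.card_prod, ← Nat.card_prod]
  let f : H × K → ((H : Set G) * (K : Set G) : Set G) :=
    fun x => ⟨(x.1 : G) * x.2, Set.mul_mem_mul x.1.2 x.2.2⟩
  have hf : ∀ y : ((H : Set G) * (K : Set G) : Set G), ∃ x : H × K, f x = y := by
    rintro ⟨y, h, hh, k, hk, rfl⟩
    exact ⟨(⟨h, hh⟩, ⟨k, hk⟩), rfl⟩
  choose g hg using hf
  refine Nat.card_congr (Equiv.ofBijective
    (fun yd : ((H : Set G) * (K : Set G) : Set G) × (H ⊓ K : Subgroup G) =>
      ((g yd.1).1 * ⟨(yd.2 : G), yd.2.2.1⟩, (⟨(yd.2 : G)⁻¹, inv_mem yd.2.2.2⟩ : K) * (g yd.1).2))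
    ⟨?_, ?_⟩)
  · rintro ⟨y, d⟩ ⟨y', d'⟩ h
    simp only [Prod.mk.injEq, Subtype.ext_iff, Subgroup.coe_mul] at h
    have hy : y = y' := by
      rw [← hg y, ← hg y']
      refine Subtype.ext ?_
      show ((g y).1 : G) * (g y).2 = ((g y').1 : G) * (g y').2
      calc ((g y).1 : G) * (g y).2
          = ((g y).1 * (d : G)) * ((d : G)⁻¹ * (g y).2) := by group
        _ = ((g y').1 * (d' : G)) * ((d' : G)⁻¹ * (g y').2) := by rw [h.1, h.2]
        _ = ((g y').1 : G) * (g y').2 := by group
    subst hy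
    exact Prod.ext rfl (Subtype.ext (mul_left_cancel h.1))
  · rintro ⟨h, k⟩
    set y := f (h, k) with hy
    have he := congrArg Subtype.val (hg y)
    change ((g y).1 : G) * (g y).2 = (h : G) * k at he
    have hd : ((g y).1 : G)⁻¹ * h = ((g y).2 : G) * (k : G)⁻¹ := by
      rw [inv_mul_eq_iff_eq_mul, ← mul_assoc, he, mul_inv_cancel_right]
    refine ⟨(y, ⟨((g y).1 : G)⁻¹ * h, H.mul_mem (H.inv_mem (g y).1.2) h.2,
      hd ▸ K.mul_mem (g y).2.2 (K.inv_mem k.2)⟩), ?_⟩
    refine Prod.ext (Subtype.ext (mul_inv_cancel_left _ _)) (Subtype.ext ?_)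
    show (((g y).1 : G)⁻¹ * h)⁻¹ * (g y).2 = k
    rw [hd]
    group

variable {p : ℕ} [hp : Fact p.Prime]

theorem abelian_isPGroup {A : Subgroup G} (hA : Cfsg.IsElementaryAbelian p A) : IsPGroup p A :=
  Signalizer.elemAb_isPGroup hA

theorem isSyl_card {q : ℕ} [Fact q.Prime] {Q X : Subgroup G} (h : Signalizer.IsSyl q Q X) :
    Nat.card Q = q ^ (Nat.card X).factorization q := by
  obtain ⟨S, rfl⟩ := h.exists_sylow
  rw [card_map_of_injective X.subtype_injective, Sylow.card_eq_multiplicity]

theorem isSyl_inf_of_le {q : ℕ} {S Y T : Subgroup G} (hS : IsPGroup q S) (hT : Signalizer.IsSyl q T Y)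
    (h : T ≤ S) : S ⊓ Y = T :=
  hT.2.2 _ inf_le_right (hS.to_le inf_le_left) (le_inf h hT.le)

theorem factorization_card_pGroup {q : ℕ} [Fact q.Prime] {U K : Subgroup G} (h : IsPGroup q U)
    (hle : U ≤ K) : Nat.card U ≤ q ^ (Nat.card K).factorization q := by
  obtain ⟨Q, hQ, hUQ⟩ := Signalizer.exists_isSyl_ge h hle
  rw [← isSyl_card hQ]
  exact Subgroup.card_le_of_le hUQ

/-- The factorization for `q`-groups, proved along the lower central series. -/
theorem pGroup_factor {q : ℕ} [Fact q.Prime] {A S X Y : Subgroup G}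
    (hA : Cfsg.IsElementaryAbelian p A) (hA2 : p ^ 2 ≤ Nat.card A) (hS : IsPGroup q S)
    (hScard : ¬ p ∣ Nat.card S) (hAS : A ≤ normalizer (S : Set G)) (hX : X ≤ S) (hY : Y ≤ S)
    (hfac : ∀ a ∈ A, a ≠ 1 → ((S ⊓ centralizer {a} : Subgroup G) : Set G) ⊆
      (X : Set G) * (Y : Set G)) :
    (S : Set G) ⊆ (X : Set G) * (Y : Set G) := by
  have key : ∀ n : ℕ, ∀ L : Subgroup G, Nat.card L = n → L ≤ S →
      S ≤ normalizer (L : Set G) → A ≤ normalizer (L : Set G) →
      (S : Set G) ⊆ (X : Set G) * (L : Set G) * (Y : Set G) →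
      (S : Set G) ⊆ (X : Set G) * (Y : Set G) := by
    intro n
    induction n using Nat.strong_induction_on with
    | _ n ih =>
      intro L hn hLS hSL hAL hsub
      subst hn
      rcases eq_or_ne L ⊥ with rfl | hne
      · intro s hs
        obtain ⟨_, ⟨x, hx, l, hl, rfl⟩, y, hy, rfl⟩ := hsub hs
        rw [SetLike.mem_coe, mem_bot] at hl
        exact ⟨x, hx, y, hy, by simp [hl]⟩
      set M := ⁅L, S⁆ with hM
      have hML : M ≤ L := le_normalizer_iff_commutator_le_left.mp hSL
      have hMne : M ≠ L := fun h => hne (Coprime.eq_bot_of_commutator_eq (hS.to_le hLS) hS hSL h)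
      have hSM : S ≤ normalizer (M : Set G) := normalizer_commutator_ge_right L S
      refine ih _ ?_ M rfl (hML.trans hLS) hSM (Signalizer.le_normalizer_commutator hAL hAS) ?_
      · exact lt_of_le_of_ne (Subgroup.card_le_of_le hML)
          fun h => hMne (eq_of_le_of_card_ge hML h.ge)
      set T : Set G := (X : Set G) * (M : Set G) * (Y : Set G) with hT
      let R : Subgroup G :=
        { carrier := {d | d ∈ L ∧ ∀ x ∈ X, ∀ m ∈ M, ∀ y ∈ Y, x * d * m * y ∈ T ∧
            ∀ d0 ∈ L, (∀ x ∈ X, ∀ m ∈ M, ∀ y ∈ Y, x * d0 * m * y ∈ T) →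
              x * (d0 * d) * m * y ∈ T}
          one_mem' := ⟨one_mem _, fun x hx m hm y hy => by
            refine ⟨?_, fun d0 _ h => ?_⟩
            · rw [mul_one]
              exact Set.mul_mem_mul (Set.mul_mem_mul hx hm) hy
            · rw [mul_one]
              exact h x hx m hm y hy⟩
          mul_mem' := fun {d e} hd he => ⟨mul_mem hd.1 he.1, fun x hx m hm y hy => by
            refine ⟨(he.2 x hx m hm y hy).2 d hd.1 fun x hx m hm y hy => (hd.2 x hx m hm y hy).1,
              fun d0 hd0 h => ?_⟩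
            rw [← mul_assoc d0]
            exact (he.2 x hx m hm y hy).2 (d0 * d) (mul_mem hd0 hd.1) fun x hx m hm y hy =>
              (hd.2 x hx m hm y hy).2 d0 hd0 h⟩
          inv_mem' := fun {d} hd => by
            have hpow : ∀ k : ℕ, ∀ x ∈ X, ∀ m ∈ M, ∀ y ∈ Y, x * d ^ k * m * y ∈ T ∧
                ∀ d0 ∈ L, (∀ x ∈ X, ∀ m ∈ M, ∀ y ∈ Y, x * d0 * m * y ∈ T) →
                  x * (d0 * d ^ k) * m * y ∈ T := by
              intro k
              induction k with
              | zero =>
                intro x hx m hm y hy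
                refine ⟨?_, fun d0 _ h => ?_⟩
                · rw [pow_zero, mul_one]
                  exact Set.mul_mem_mul (Set.mul_mem_mul hx hm) hy
                · rw [pow_zero, mul_one]
                  exact h x hx m hm y hy
              | succ k ihk =>
                intro x hx m hm y hy
                refine ⟨?_, fun d0 hd0 h => ?_⟩
                · rw [pow_succ]
                  exact (hd.2 x hx m hm y hy).2 _ (pow_mem hd.1 k)
                    fun x hx m hm y hy => (ihk x hx m hm y hy).1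
                · rw [pow_succ, ← mul_assoc d0]
                  exact (hd.2 x hx m hm y hy).2 _ (mul_mem hd0 (pow_mem hd.1 k))
                    fun x hx m hm y hy => (ihk x hx m hm y hy).2 d0 hd0 h
            obtain ⟨k, hk⟩ := (mem_powers_iff_mem_zpowers.mpr
              (inv_mem (mem_zpowers d)) : d⁻¹ ∈ Submonoid.powers d)
            exact ⟨inv_mem hd.1, fun x hx m hm y hy => hk ▸ hpow k x hx m hm y hy⟩ }
      have hgen : L ≤ R := by
        refine Signalizer.le_of_forall_centralizer hA hA2 hAL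
          (Signalizer.not_dvd_card_of_le hLS hScard) fun a ha ha1 d hd => ?_
        obtain ⟨a', ha', b, hb, hab⟩ := hfac a ha ha1 ⟨hLS hd.1, hd.2⟩
        have hfirst : ∀ x ∈ X, ∀ m ∈ M, ∀ y ∈ Y, x * d * m * y ∈ T := by
          intro x hx m hm y hy
          have heq : x * d * m * y = (x * a') * (b * m * b⁻¹) * (b * y) := by
            rw [← hab]; group
          rw [heq]
          exact Set.mul_mem_mul (Set.mul_mem_mul (mul_mem hx ha')
            ((mem_normalizer_iff.mp (hSM (hY hb)) m).mp hm)) (mul_mem hb hy)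
        refine ⟨hd.1, fun x hx m hm y hy => ⟨hfirst x hx m hm y hy, fun d0 hd0 h => ?_⟩⟩
        have hc : (a'⁻¹ * d0 * a') ∈ L := by
          have := (mem_normalizer_iff.mp (hSL (inv_mem (hX ha'))) d0).mp hd0
          rwa [inv_inv] at this
        have hm1 : d0⁻¹ * (a'⁻¹ * d0 * a') ∈ M := by
          have h1 : ⁅d0⁻¹, a'⁻¹⁆ ∈ M :=
            commutator_mem_commutator (inv_mem hd0) (inv_mem (hX ha'))
          rw [commutatorElement_def] at h1
          simpa [mul_assoc] using h1
        set m1 := d0⁻¹ * (a'⁻¹ * d0 * a') with hm1def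
        have hm2 : m1 * (b * m * b⁻¹) ∈ M :=
          mul_mem hm1 ((mem_normalizer_iff.mp (hSM (hY hb)) m).mp hm)
        have heq : x * (d0 * d) * m * y =
            (x * a') * d0 * (m1 * (b * m * b⁻¹)) * (b * y) := by
          rw [← hab, hm1def]; group
        rw [heq]
        exact h _ (mul_mem hx ha') _ hm2 _ (mul_mem hb hy)
      intro s hs
      obtain ⟨_, ⟨x, hx, l, hl, rfl⟩, y, hy, rfl⟩ := hsub hs
      have h := ((hgen hl).2 x hx 1 (one_mem _) y hy).1
      rwa [mul_one] at h
  refine key _ S rfl le_rfl le_normalizer hAS fun s hs => ?_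
  exact ⟨s, ⟨1, one_mem _, s, hs, one_mul s⟩, 1, one_mem _, mul_one s⟩

/-- The factorization theorem. -/
theorem factorization_of_centralizers {A K X Y : Subgroup G} (hA : Cfsg.IsElementaryAbelian p A)
    (hA2 : p ^ 2 ≤ Nat.card A) (hK : ¬ p ∣ Nat.card K) (hAK : A ≤ normalizer (K : Set G))
    (hX : X ≤ K) (hY : Y ≤ K) (hAX : A ≤ normalizer (X : Set G)) (hAY : A ≤ normalizer (Y : Set G))
    (hCX : K ⊓ centralizer (A : Set G) ≤ normalizer (X : Set G))
    (hfac : ∀ a ∈ A, a ≠ 1 → ((K ⊓ centralizer {a} : Subgroup G) : Set G) =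
      ((X ⊓ centralizer {a} : Subgroup G) : Set G) * ((Y ⊓ centralizer {a} : Subgroup G) : Set G)) :
    (K : Set G) = (X : Set G) * (Y : Set G) := by
  classical
  have hAp := Signalizer.elemAb_isPGroup hA
  have hsub : (X : Set G) * (Y : Set G) ⊆ (K : Set G) := by
    rintro _ ⟨x, hx, y, hy, rfl⟩
    exact mul_mem (hX hx) (hY hy)
  refine (Set.eq_of_subset_of_ncard_le hsub ?_ (Set.toFinite _)).symm
  have hq : ∀ q : ℕ, q.Prime → (Nat.card K).factorization q +
      (Nat.card (X ⊓ Y : Subgroup G)).factorization q ≤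
      (Nat.card X).factorization q + (Nat.card Y).factorization q := by
    intro q hq
    have := Fact.mk hq
    -- an invariant Sylow subgroup of `K` meeting `X`, `Y`, `X ⊓ Y` in Sylow subgroups
    obtain ⟨T, hT, hTA⟩ := Signalizer.exists_isSyl_invariant (q := q) hAp
      (Signalizer.le_normalizer_inf hAX hAY)
      (Signalizer.not_dvd_card_of_le (inf_le_left.trans hX) hK)
    obtain ⟨SY, hSY, hSYA, hTSY⟩ := Signalizer.exists_isSyl_invariant_ge (q := q) hAp hAY
      (Signalizer.not_dvd_card_of_le hY hK) hT.isPGroup (hT.le.trans inf_le_right) hTA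
    obtain ⟨SX, hSX, hSXA⟩ := Signalizer.exists_isSyl_invariant (q := q) hAp hAX
      (Signalizer.not_dvd_card_of_le hX hK)
    obtain ⟨S1, hS1, hS1A, hSXS1⟩ := Signalizer.exists_isSyl_invariant_ge (q := q) hAp hAK hK
      hSX.isPGroup (hSX.le.trans hX) hSXA
    obtain ⟨S, hS, hSA, hSYS⟩ := Signalizer.exists_isSyl_invariant_ge (q := q) hAp hAK hK
      hSY.isPGroup (hSY.le.trans hY) hSYA
    obtain ⟨c, hc, hcS⟩ :=
      Signalizer.exists_conj_isSyl_invariant hAp hAK hK hS1 hS1A hS hSA
    set SX' := SX.map (MulAut.conj c).toMonoidHom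
    have hSX' : Signalizer.IsSyl q SX' X := by
      have h := hSX.map_conj c
      rwa [Signalizer.map_conj_eq_self_iff.mpr (hCX hc)] at h
    have hSXle : SX' ≤ S := hcS ▸ map_mono hSXS1
    have e1 : S ⊓ X = SX' := isSyl_inf_of_le hS.isPGroup hSX' hSXle
    have e2 : S ⊓ Y = SY := isSyl_inf_of_le hS.isPGroup hSY hSYS
    have e3 : S ⊓ (X ⊓ Y) = T := isSyl_inf_of_le hS.isPGroup hT (hTSY.trans hSYS)
    -- the factorization inside `S`
    have hSfac : (S : Set G) ⊆ ((S ⊓ X : Subgroup G) : Set G) * ((S ⊓ Y : Subgroup G) : Set G) := by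
      refine pGroup_factor hA hA2 hS.isPGroup (Signalizer.not_dvd_card_of_le hS.le hK) hSA
        inf_le_left inf_le_left fun a ha ha1 => ?_
      set C := centralizer ({a} : Set G) with hC
      have hAC : A ≤ normalizer (C : Set G) :=
        Signalizer.le_normalizer_centralizer_singleton hA.1 ha
      have hSC : Signalizer.IsSyl q (S ⊓ C) (K ⊓ C) := by
        refine ⟨inf_le_inf_right _ hS.le, hS.isPGroup.to_le inf_le_left, fun R hR hRq hle => ?_⟩
        obtain ⟨R1, hR1, hR1A, hR1le⟩ := Signalizer.exists_isSyl_invariant_ge (q := q) hAp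
          (Signalizer.le_normalizer_inf hAK hAC) (Signalizer.not_dvd_card_of_le inf_le_left hK)
          (hS.isPGroup.to_le inf_le_left) (inf_le_inf_right _ hS.le)
          (Signalizer.le_normalizer_inf hSA hAC)
        obtain ⟨Q1, hQ1, hQ1A, hR1Q1⟩ := Signalizer.exists_isSyl_invariant_ge (q := q) hAp hAK hK
          hR1.isPGroup (hR1.le.trans inf_le_left) hR1A
        obtain ⟨c, hc, hcQ⟩ :=
          Signalizer.exists_conj_isSyl_invariant hAp hAK hK hQ1 hQ1A hS hSA
        have hcC : c ∈ C := by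
          rw [hC, mem_centralizer_singleton_iff]
          exact (hc.2 a ha).symm
        have hle1 : R1.map (MulAut.conj c).toMonoidHom ≤ S ⊓ C := by
          refine le_inf (hcQ ▸ map_mono hR1Q1) ?_
          rw [← Signalizer.map_conj_eq_self_iff.mpr (le_normalizer hcC)]
          exact map_mono (hR1.le.trans inf_le_right)
        refine (eq_of_le_of_card_ge hle ?_).symm
        calc Nat.card R ≤ q ^ (Nat.card (K ⊓ C : Subgroup G)).factorization q :=
              factorization_card_pGroup hRq hR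
          _ = Nat.card (R1.map (MulAut.conj c).toMonoidHom) := by
              rw [card_map_of_injective (MulAut.conj c).injective, isSyl_card hR1]
          _ ≤ Nat.card (S ⊓ C : Subgroup G) := Subgroup.card_le_of_le hle1
      set XS := S ⊓ X ⊓ C
      set YS := S ⊓ Y ⊓ C
      intro s hs
      have hmem : s ∈ ((XS : Set G) * (YS : Set G)) := by
        have hsub2 : ((XS : Set G) * (YS : Set G)) ⊆ ((S ⊓ C : Subgroup G) : Set G) := by
          rintro _ ⟨x, hx, y, hy, rfl⟩
          exact mul_mem ⟨hx.1.1, hx.2⟩ ⟨hy.1.1, hy.2⟩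
        rw [Set.eq_of_subset_of_ncard_le hsub2 ?_ (Set.toFinite _)]
        · exact hs
        rw [← Nat.card_coe_set_eq, ← Nat.card_coe_set_eq]
        show Nat.card (S ⊓ C : Subgroup G) ≤ _
        rw [isSyl_card hSC]
        -- Sylow subgroups of the centralisers in `X` and `Y`
        have hsylC : ∀ (Z SZ : Subgroup G), Z ≤ K → A ≤ normalizer (Z : Set G) →
            (K ⊓ centralizer (A : Set G) ≤ normalizer (Z : Set G) ∨ Z ≤ Y) →
            Signalizer.IsSyl q SZ Z → S ⊓ Z = SZ →
            q ^ (Nat.card (Z ⊓ C : Subgroup G)).factorization q ≤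
              Nat.card (S ⊓ Z ⊓ C : Subgroup G) := by
          intro Z SZ hZK hAZ _ hSZ hSZeq
          obtain ⟨R1, hR1, hR1A⟩ := Signalizer.exists_isSyl_invariant (q := q) hAp
            (Signalizer.le_normalizer_inf hAZ hAC)
            (Signalizer.not_dvd_card_of_le (inf_le_left.trans hZK) hK)
          obtain ⟨Q1, hQ1, hQ1A, hR1Q1⟩ := Signalizer.exists_isSyl_invariant_ge (q := q) hAp hAZ
            (Signalizer.not_dvd_card_of_le hZK hK) hR1.isPGroup (hR1.le.trans inf_le_left) hR1A
          obtain ⟨c, hc, hcQ⟩ := Signalizer.exists_conj_isSyl_invariant hAp hAZ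
            (Signalizer.not_dvd_card_of_le hZK hK) hQ1 hQ1A hSZ
            (hSZeq ▸ Signalizer.le_normalizer_inf hSA hAZ)
          have hcC : c ∈ C := by
            rw [hC, mem_centralizer_singleton_iff]
            exact (hc.2 a ha).symm
          have hle : R1.map (MulAut.conj c).toMonoidHom ≤ S ⊓ Z ⊓ C := by
            refine le_inf (hSZeq.symm ▸ hcQ ▸ map_mono hR1Q1) ?_
            rw [← Signalizer.map_conj_eq_self_iff.mpr (le_normalizer hcC)]
            exact map_mono (hR1.le.trans inf_le_right)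
          rw [← isSyl_card hR1, ← card_map_of_injective (f := (MulAut.conj c).toMonoidHom)
            (K := R1) (MulAut.conj c).injective]
          exact Subgroup.card_le_of_le hle
        have hXS := hsylC X SX' hX hAX (Or.inl hCX) hSX' e1
        have hYS := hsylC Y SY hY hAY (Or.inr le_rfl) hSY e2
        have hinf : Nat.card (XS ⊓ YS : Subgroup G) ≤
            q ^ (Nat.card (X ⊓ C ⊓ (Y ⊓ C) : Subgroup G)).factorization q := by
          refine factorization_card_pGroup (hS.isPGroup.to_le
            (inf_le_left.trans (inf_le_left.trans inf_le_left))) ?_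
          exact inf_le_inf (inf_le_inf_right _ inf_le_right) (inf_le_inf_right _ inf_le_right)
        have hcardset := card_mul_mul_card_inf XS YS
        have hprodKC := card_mul_mul_card_inf (X ⊓ C) (Y ⊓ C)
        rw [← hfac a ha ha1, SetLike.coe_sort_coe] at hprodKC
        have hfz := congrArg (fun n : ℕ => n.factorization q) hprodKC
        simp only [Nat.factorization_mul Nat.card_pos.ne' Nat.card_pos.ne', Finsupp.coe_add,
          Pi.add_apply] at hfz
        have hpos : 0 < q ^ (Nat.card (X ⊓ C ⊓ (Y ⊓ C) : Subgroup G)).factorization q :=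
          pow_pos hq.pos _
        refine Nat.le_of_mul_le_mul_right ?_ hpos
        calc q ^ (Nat.card (K ⊓ C : Subgroup G)).factorization q *
              q ^ (Nat.card (X ⊓ C ⊓ (Y ⊓ C) : Subgroup G)).factorization q
            = q ^ (Nat.card (X ⊓ C : Subgroup G)).factorization q *
              q ^ (Nat.card (Y ⊓ C : Subgroup G)).factorization q := by
                rw [← pow_add, ← pow_add, hfz]
          _ ≤ Nat.card XS * Nat.card YS := Nat.mul_le_mul hXS hYS
          _ = _ := hcardset.symm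
          _ ≤ _ := Nat.mul_le_mul_left _ hinf
      obtain ⟨x, hx, y, hy, rfl⟩ := hmem
      exact ⟨x, hx.1, y, hy.1, rfl⟩
    have hprod := card_mul_mul_card_inf (S ⊓ X) (S ⊓ Y)
    have hsubS : ((S ⊓ X : Subgroup G) : Set G) * ((S ⊓ Y : Subgroup G) : Set G) ⊆ (S : Set G) := by
      rintro _ ⟨x, hx, y, hy, rfl⟩
      exact mul_mem hx.1 hy.1
    rw [← subset_antisymm hSfac hsubS, SetLike.coe_sort_coe] at hprod
    rw [show (S ⊓ X) ⊓ (S ⊓ Y) = S ⊓ (X ⊓ Y) from inf_inf_distrib_left S X Y |>.symm] at hprod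
    rw [e1, e2, e3, isSyl_card hS, isSyl_card hSX', isSyl_card hSY, isSyl_card hT, ← pow_add,
      ← pow_add] at hprod
    exact (Nat.pow_right_injective hq.two_le hprod).le
  have hle : Nat.card K * Nat.card (X ⊓ Y : Subgroup G) ≤ Nat.card X * Nat.card Y := by
    refine Nat.le_of_dvd (Nat.mul_pos Nat.card_pos Nat.card_pos) ?_
    rw [← Nat.factorization_le_iff_dvd (Nat.mul_pos Nat.card_pos Nat.card_pos).ne'
      (Nat.mul_pos Nat.card_pos Nat.card_pos).ne']
    intro q
    rw [Nat.factorization_mul Nat.card_pos.ne' Nat.card_pos.ne',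
      Nat.factorization_mul Nat.card_pos.ne' Nat.card_pos.ne', Finsupp.add_apply, Finsupp.add_apply]
    by_cases hqp : q.Prime
    · exact hq q hqp
    · simp [Nat.factorization_eq_zero_of_not_prime _ hqp]
  rw [← card_mul_mul_card_inf X Y] at hle
  rw [← Nat.card_coe_set_eq, ← Nat.card_coe_set_eq]
  exact Nat.le_of_mul_le_mul_right hle Nat.card_pos

end Cfsg.Agent.CompFact
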